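import Cfsg.Agent.Y6.F3

/-! The case in which `t` is a reflection of an orthogonal group. -/

set_option autoImplicit false
set_option linter.unusedSectionVars false
set_option linter.unusedVariables false
set_option synthInstance.maxSize 4000
set_option maxRecDepth 100000

namespace CF.Y6

open Cfsg Subgroup CF.Loc CF.Ft CF.Ft.U A1

attribute [local irreducible] ac cd el ee lv dd τ bb

variable {G : Type*} [Group G] [Finite G] {ι : Sp →* G} {t x y : G} {m p : Sp} {u v w u' v' : ℕ}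

/-- the shift attached to the hyperbolic quadratic form -/
def sh (w : ℕ) : ℕ := w ^^^ (1 + w % 2 * (w / 8 % 2) + w / 2 % 2 * (w / 16 % 2) + w / 4 % 2 * (w / 32 % 2)) % 2

/-- `x` moves the reflection `u` to the reflection `v` -/
def Mv (ι : Sp →* G) (t x : G) (u v : ℕ) : Prop := x * (t * ι (τ u)) * x⁻¹ = t * ι (τ v)

theorem Mv.mul (a : Mv ι t x v w) (b : Mv ι t y u v) : Mv ι t (x * y) u w := by
  rw [Mv, ← a, ← b]; group

theorem Mv.zero : Mv ι t x 0 v ↔ x * t * x⁻¹ = t * ι (τ v) := by rw [Mv, τ_zero, map_one, mul_one]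

theorem gen_O {P : ℕ → Prop} (s : ∀ u v, O u → O v → fm u v = 1 → P u → P v → P (u ^^^ v)) (h : ∀ w, O w → P w → P (w ^^^ 1))
    (p0 : P 0) (p2 : P 2) (p4 : P 4) (p6 : P 6) (p16 : P 16) (p32 : P 32) (o : O w) : P w := by
  have a18 : P 18 := s 2 16 (by decide) (by decide) (by decide) p2 p16
  have a36 : P 36 := s 4 32 (by decide) (by decide) (by decide) p4 p32
  have a22 : P 22 := s 6 16 (by decide) (by decide) (by decide) p6 p16
  have a38 : P 38 := s 6 32 (by decide) (by decide) (by decide) p6 p32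
  have a20 : P 20 := s 22 2 (by decide) (by decide) (by decide) a22 p2
  have a34 : P 34 := s 38 4 (by decide) (by decide) (by decide) a38 p4
  have a50 : P 50 := s 34 16 (by decide) (by decide) (by decide) a34 p16
  have a48 : P 48 := s 50 2 (by decide) (by decide) (by decide) a50 p2
  have a52 : P 52 := s 48 4 (by decide) (by decide) (by decide) a48 p4
  have a54 : P 54 := s 52 2 (by decide) (by decide) (by decide) a52 p2
  have l : ∀ w ∈ [0, 2, 4, 6, 16, 18, 20, 22, 32, 34, 36, 38, 48, 50, 52, 54], P w := by simp [*]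
  obtain k | ⟨k, o', e⟩ := (by decide +kernel : ∀ w < 64, fm w 1 = 0 → w ∈ [0, 2, 4, 6, 16, 18, 20, 22, 32, 34, 36, 38, 48, 50, 52, 54] ∨
    w ^^^ 1 ∈ [0, 2, 4, 6, 16, 18, 20, 22, 32, 34, 36, 38, 48, 50, 52, 54] ∧ O (w ^^^ 1) ∧ w ^^^ 1 ^^^ 1 = w) w o.1 o.2
  exacts [l w k, e ▸ h _ o' (l _ k)]

variable (c : Ct ι t)
include c

theorem Mv.of (p : Sp) (a : u < 64) : Mv ι t (ι p) u (ac p u) := by rw [Mv, c.cjt' (.of p), τ_cj p a]

theorem Mv.of' (e : ac p u = v) (a : u < 64 := by decide) : Mv ι t (ι p) u v := e ▸ Mv.of c p a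

theorem Mv.ex (a : Mv ι t x 0 0) : ∃ m, Im ι t x m := c.ex (mul_inv_eq_iff_eq_mul.1 (by simpa only [τ_zero, map_one, mul_one] using Mv.zero.1 a))

theorem Mv.uq (a : Mv ι t x u v) (b : Mv ι t x u w) (k : v < 64) (l : w < 64) : v = w := τ_inj k l (c.tm_inj (a.symm.trans b))

theorem Mv.inj (a : Mv ι t x u w) (b : Mv ι t x v w) (k : u < 64) (l : v < 64) : u = v :=
  τ_inj k l (c.tm_inj (mul_left_cancel (mul_right_cancel (a.trans b.symm))))

theorem Mv.im (a : Mv ι t x u v) (i : Im ι t x m) (k : u < 64) (l : v < 64) : ac m u = v :=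
  τ_inj (ac_lt _ _) l (c.tm_inj (by rw [← τ_cj m k, ← c.cjt' i, a]))

theorem cm_fm (k : u < 64) (l : v < 64) : t * ι (τ u) * (t * ι (τ v)) = t * ι (τ v) * (t * ι (τ u)) ↔ fm u v = 0 := by
  rw [c.cm_iff (.of' _) (.of' _), τ_cm l, ac_tv k l]
  exact (by decide +kernel : ∀ u < 64, ∀ v < 64, tv u v = v ↔ fm u v = 0 ∨ u = 0) u k v l |>.trans (or_iff_left_of_imp fun e => e ▸ fm0 v)

theorem Mv.form (a : Mv ι t x u u') (b : Mv ι t x v v') (k : u < 64) (l : v < 64) (k' : u' < 64) (l' : v' < 64) : fm u' v' = fm u v := by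
  have : fm u' v' = 0 ↔ fm u v = 0 := by
    rw [← cm_fm c k l, ← cm_fm c k' l', ← a, ← b, conj_mul, conj_mul, mul_left_inj, mul_right_inj]
  have := fm_lt u v
  have := fm_lt u' v'
  omega

theorem Mv.add (a : Mv ι t x u u') (b : Mv ι t x v v') (k : u < 64) (l : v < 64) (k' : u' < 64) (l' : v' < 64) (e : Ft.fm u v = 1) :
    Mv ι t x (u ^^^ v) (u' ^^^ v') := by
  have z : ∀ {u v}, u < 64 → v < 64 → Ft.fm u v = 1 → t * ι (τ (u ^^^ v)) = t * ι (τ u) * (t * ι (τ v)) * (t * ι (τ u))⁻¹ := fun {u v} k l e => by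
    rw [c.cjt' (.of' _), τ_cj _ l, ac_τ k l, fm_symm l k, e, one_mul, Nat.xor_comm]
  rw [Mv, z k l e, z k' l' ((a.form c b k l k' l').trans e), ← a, ← b]
  group

theorem ex_mv (k : C1 ι t) : ∃ y, ∃ φ : ℕ → ℕ, φ 0 = 1 ∧ φ 1 = 0 ∧ ∀ w, O w → O (φ w) ∧ Mv ι t y w (φ w) := by
  obtain ⟨y, a, b⟩ := c.ny (m := τ 1) (fun m i => ((τ_cm (by decide)).2 (mem_SS.1 i).1).symm) ((k _).2 ⟨1, by decide, rfl⟩)
  have m0 := Mv.zero.2 b
  have m1 : Mv ι t y 1 0 := by rw [Mv, ← conj_mul, b, cj_eq (c.nT a).1, mul_assoc, ← map_mul, τ_sq, τ_zero]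
  have : ∀ w, ∃ v, O w → O v ∧ Mv ι t y w v := fun w => by
    by_cases o : O w
    · have e := (cm_fm c o.1 (by decide)).2 o.2
      obtain ⟨m, i⟩ := c.ex (x := y * (t * ι (τ w)) * y⁻¹) (by
        have : t = y * (t * ι (τ 1)) * y⁻¹ := by rw [m1, τ_zero, map_one, mul_one]
        conv_lhs => enter [2]; rw [this]
        conv_rhs => enter [1]; rw [this]
        rw [conj_mul, conj_mul, e])
      have d := ((k _).2 ⟨w, o.1, rfl⟩).cj y
      have r := c.im_D i d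
      obtain ⟨v, l, rfl⟩ := (k m).1 (r ▸ d)
      exact ⟨v, fun _ => ⟨⟨l, (Mv.form c r m0 o.1 (by decide) l (by decide)).trans (by rw [fm_symm o.1 (by decide), fm0])⟩, r⟩⟩
    · exact ⟨0, fun h => absurd h o⟩
  choose φ q using this
  exact ⟨y, φ, (q 0 O0).2.uq c m0 (q 0 O0).1.1 (by decide), (q 1 (by decide)).2.uq c m1 (q 1 (by decide)).1.1 (by decide), q⟩

theorem ex_mv' (k : C1 ι t) : ∃ y, ∃ φ : ℕ → ℕ, φ 0 = 1 ∧ φ 1 = 0 ∧ (φ 2 = 3 ∧ φ 4 = 5 ∧ φ 16 = 17 ∧ φ 32 = 33) ∧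
    ∀ w, O w → O (φ w) ∧ Mv ι t y w (φ w) := by
  obtain ⟨y, φ, a, b, q⟩ := ex_mv c k
  have o : ∀ w, O w → O (φ w ^^^ 1) := fun w h => (q w h).1.xor (by decide)
  have f : ∀ u v, O u → O v → fm (φ u ^^^ 1) (φ v ^^^ 1) = fm u v := fun u v i j => by
    rw [← (q u i).2.form c (q v j).2 i.1 j.1 (q u i).1.1 (q v j).1.1]
    exact (by decide +kernel : ∀ u < 64, fm u 1 = 0 → ∀ v < 64, fm v 1 = 0 → fm (u ^^^ 1) (v ^^^ 1) = fm u v) _ (q u i).1.1 (q u i).1.2 _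
      (q v j).1.1 (q v j).1.2
  obtain ⟨g, i, e2, e4, e16, e32⟩ := ex_lev (u := φ 2 ^^^ 1) (u3 := φ 4 ^^^ 1) (v2 := φ 16 ^^^ 1) (v3 := φ 32 ^^^ 1)
    ⟨(o _ (by decide)).1, (o _ (by decide)).1, (o _ (by decide)).1, (o _ (by decide)).1⟩
    ⟨(o _ (by decide)).2, (o _ (by decide)).2, (o _ (by decide)).2, (o _ (by decide)).2⟩
    (by refine ⟨?_, ?_, ?_, ?_, ?_, ?_⟩ <;> rw [f _ _ (by decide) (by decide)] <;> decide)
  have z : ∀ {u}, u < 64 → ac g u = φ u ^^^ 1 → ac g⁻¹ (φ u) = u ^^^ 1 := fun {u} l e => by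
    rw [← ac_inv g (xor_lt l (by decide : 1 < 64)), ac_xor g, e, mem_P1.1 i, Nat.xor_xor_cancel_right]
  exact ⟨ι g⁻¹ * y, fun w => ac g⁻¹ (φ w), by simp only [a, mem_P1.1 (inv_mem i)], by simp only [b, ac_zero],
    ⟨z (by decide) e2, z (by decide) e4, z (by decide) e16, z (by decide) e32⟩,
    fun w h => ⟨(q w h).1.cj (inv_mem i), (Mv.of c _ (q w h).1.1).mul (q w h).2⟩⟩

theorem Ct.xe (k : C1 ι t) : ∃ x, x ^ 4 = 1 ∧ ∀ w, O w → Mv ι t x w (sh w) := by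
  obtain ⟨y, φ, a, b, ⟨e2, e4, e16, e32⟩, q⟩ := ex_mv' c k
  have f : ∀ u v, O u → O v → fm (φ u) (φ v) = fm u v := fun u v i j => (q u i).2.form c (q v j).2 i.1 j.1 (q u i).1.1 (q v j).1.1
  have h : ∀ w, O w → φ w = w ∨ φ w = w ^^^ 1 := fun w o =>
    (by decide +kernel : ∀ w < 64, fm w 1 = 0 → ∀ x < 64, fm x 1 = 0 → fm x 3 = fm w 2 → fm x 5 = fm w 4 → fm x 17 = fm w 16 → fm x 33 = fm w 32 →
      x = w ∨ x = w ^^^ 1) w o.1 o.2 _ (q w o).1.1 (q w o).1.2 (e2 ▸ f w 2 o (by decide)) (e4 ▸ f w 4 o (by decide))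
      (e16 ▸ f w 16 o (by decide)) (e32 ▸ f w 32 o (by decide))
  have h1 : ∀ w, O w → φ (w ^^^ 1) = φ w ^^^ 1 := fun w o => by
    have o' := o.xor (by decide : O 1)
    have n : φ (w ^^^ 1) ≠ φ w := fun e => by simpa using (q _ o').2.inj c (e ▸ (q _ o).2) o'.1 o.1
    rcases h w o with e | e <;> rcases h _ o' with e' | e' <;> simp_all
  have e6 : φ 6 = 7 := (h 6 (by decide)).resolve_left fun e6 => by
    have z : ∀ u v, O u → φ u = v → ∀ w, ac (bb 1 48) v = w → Mv ι t (ι (bb 1 48) * y) u w := fun u v o e w e' =>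
      (Mv.of' c e' (e ▸ (q u o).1.1)).mul (e ▸ (q u o).2)
    have f0 := z 0 1 O0 a 1 (by simp only [ac_cd, cd_bb]; decide +kernel)
    have f1 := z 1 0 (by decide) b 0 (ac_zero _)
    have f2 := z 2 3 (by decide) e2 2 (by simp only [ac_cd, cd_bb]; decide +kernel)
    have f4 := z 4 5 (by decide) e4 4 (by simp only [ac_cd, cd_bb]; decide +kernel)
    have f5 := z 5 4 (by decide) ((h1 4 (by decide)).trans (by rw [e4]; rfl)) 5 (by simp only [ac_cd, cd_bb]; decide +kernel)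
    have f6 := z 6 6 (by decide) e6 6 (by simp only [ac_cd, cd_bb]; decide +kernel)
    generalize ι (bb 1 48) * y = f at *
    have g : ∀ u v, u < 64 → ap (lc (2 + 8 * 1 + 64 * 4)) u = v → Mv ι t (ι (lv (2 + 8 * 1 + 64 * 4))) u v := fun u v l e =>
      Mv.of' c (by rw [ac_cd, cd_lv W.ok12, e]) l
    have g0 := g 0 0 (by decide) (by decide +kernel)
    have g1 := g 1 2 (by decide) (by decide +kernel)
    have g2 := g 2 1 (by decide) (by decide +kernel)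
    have g4 := g 4 4 (by decide) (by decide +kernel)
    have g5 := g 5 6 (by decide) (by decide +kernel)
    have g6 := g 6 5 (by decide) (by decide +kernel)
    obtain ⟨m, i⟩ := (f1.mul (g2.mul (f2.mul (g1.mul f0)))).ex c
    have r := ac_xor m 1 4
    rw [(f2.mul (g1.mul (f0.mul (g0.mul f1)))).im c i (by decide) (by decide), (f4.mul (g4.mul (f4.mul (g4.mul f4)))).im c i (by decide) (by decide),
      show 1 ^^^ 4 = 5 from rfl, (f5.mul (g6.mul (f6.mul (g5.mul f5)))).im c i (by decide) (by decide)] at r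
    exact absurd r (by decide)
  have z : ∀ w, O w → Mv ι t y w (sh w) := fun w o => by
    refine gen_O (P := fun w => φ w = sh w) (fun u v i j e p p' => ?_) (fun w o p => ?_) a e2 e4 e6 e16 e32 o ▸ (q w o).2
    · rw [(q _ (i.xor j)).2.uq c ((q u i).2.add c (q v j).2 i.1 j.1 (q u i).1.1 (q v j).1.1 e) (q _ (i.xor j)).1.1
        ((q u i).1.xor (q v j).1).1, p, p']
      exact (by decide +kernel : ∀ u < 64, fm u 1 = 0 → ∀ v < 64, fm u v = 1 → sh u ^^^ sh v = sh (u ^^^ v)) u i.1 i.2 v j.1 e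
    · rw [h1 w o, p]
      exact (by decide +kernel : ∀ u < 64, fm u 1 = 0 → sh u ^^^ 1 = sh (u ^^^ 1)) w o.1 o.2
  have s : ∀ w, O w → Mv ι t (y * y) w w := fun w o => by
    obtain ⟨o', e⟩ := (by decide +kernel : ∀ u < 64, fm u 1 = 0 → O (sh u) ∧ sh (sh u) = u) w o.1 o.2
    simpa only [e] using (z _ o').mul (z w o)
  obtain ⟨m, i⟩ := (s 0 O0).ex c
  refine ⟨y, ?_, z⟩
  rw [show y ^ 4 = y * y * (y * y) by simp only [pow_succ, pow_zero, one_mul, mul_assoc], c.im_sq i]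
  rcases C_P1 (g := m) fun p j => (gen_F2 (H := centralizer {m}) (fun v l e _ r => r ▸ (τ_cm l).2 ((s v ⟨l, e⟩).im c i l l)) j _ rfl) with e | e <;>
    simp [e, τ_sq]

end CF.Y6
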