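import Cfsg.Agent.Y6.F3

/-! The doubled elements of type `a₂` in the bit model. -/

set_option autoImplicit false
set_option linter.unusedSectionVars false
set_option linter.unusedVariables false
set_option synthInstance.maxSize 4000
set_option maxRecDepth 100000

namespace CF.Y6

open Cfsg Subgroup CF.Loc CF.Ft CF.Ft.U CF.Ft.W

attribute [local irreducible] ac cd el ee lv dd τ σ3

variable {G : Type*} [Group G] [Finite G] {ι : Sp →* G} {t g b x y : G} {m p : Sp} {u v w α k : ℕ}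

/-- the doubled element belonging to the first two basis vectors -/
structure B0 (ι : Sp →* G) (t b : G) (α : ℕ) : Prop where
  sq : b * b = 1
  tw : b * t * b⁻¹ = t * ι (bb 1 2)
  cz : Cz ι (Fx 4) b
  sh : ι (bb 1 16) * b * (ι (bb 1 16))⁻¹ = b * ι (τ 1 ^ α)
  sy : ι (σ3 * bb 1 16) * b * (ι (σ3 * bb 1 16))⁻¹ = b * ι (bb 1 2 ^ α)

theorem bb00 (u : ℕ) : bb u 0 = 1 ∧ bb 0 u = 1 ∧ bb u u = 1 := by simp [bb, τ_zero, τ_sq]

attribute [local irreducible] bb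

theorem Ct.b0 (c : Ct ι t) (k : Gy ι t g α) (a : α = 0 ∨ α = 1) : B0 ι t (g * ι ((τ 1 * τ 2) ^ α)) α := by
  have i : (τ 1 * τ 2) ^ α ∈ EE := pow_mem (mul_mem (τE (by decide)) (τE (by decide))) _
  have x : ι (bb 1 16) * g * (ι (bb 1 16))⁻¹ = g * ι (bb 1 2 ^ α) := by
    have e := k.gx
    rw [map_mul, mul_inv_eq_iff_eq_mul, mul_assoc, ← k.gf _ (pow_mem (EE_F4 (AL_le bA)) _)] at e
    rw [← map_inv, si (QQ_sq (bb_QQ (by decide) (by decide))), mul_assoc, e, ← mul_assoc, ← map_mul,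
      QQ_sq (bb_QQ (by decide) (by decide)), map_one, one_mul]
  have x' : ι (bb 1 16) * (g * ι ((τ 1 * τ 2) ^ α)) * (ι (bb 1 16))⁻¹ = g * ι (τ 2 ^ α) := by
    rw [cjm, x, ← map_inv, ← map_mul, ← map_mul, mul_assoc, ← map_mul]
    rcases a with rfl | rfl <;> exact congrArg (g * ι ·) (cd_inj (by simp only [pow_zero, pow_one, cd_mul, cd_inv, cd_bb, cd_τ, cd_one]; decide +kernel))
  refine ⟨sq2 k.gg (by rw [← map_mul, EE_sq i, map_one]) (k.gf _ (EE_F4 i)), ?_, k.gf.mul fun m j => ?_, ?_, ?_⟩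
  · rw [← k.gt]
    conv_rhs => rw [← c.tcj ((τ 1 * τ 2) ^ α)]
    group
  · rw [← map_mul, ← map_mul]
    exact congrArg ι ((show Commute m _ from (τ_cm (by decide)).2 (mem_F4.1 j).1).mul_right
      (show Commute m _ from (τ_cm (by decide)).2 (mem_F4.1 j).2) |>.pow_right α).symm
  · rw [x', mul_assoc, ← map_mul]
    rcases a with rfl | rfl <;> exact congrArg (g * ι ·) (cd_inj (by simp only [pow_zero, pow_one, cd_mul, cd_τ, cd_one]; decide +kernel))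
  · rw [map_mul, mul_inv_rev, show ∀ a b c d e : G, a * b * c * (d * e) = a * (b * c * d) * e by intros; group, x', cjm, cj_eq k.gs.symm,
      ← map_inv, ← map_mul, ← map_mul, mul_assoc g, ← map_mul]
    rcases a with rfl | rfl <;>
      exact congrArg (g * ι ·) (cd_inj (by simp only [pow_zero, pow_one, cd_mul, cd_inv, cd_bb, cd_σ, cd_τ, cd_one]; decide +kernel))

open scoped _root_.Classical in
/-- the family of doubled elements -/
noncomputable def bf (ι : Sp →* G) (b : G) (α u v : ℕ) : G :=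
  if h : ∃ p, ac p 1 = u ∧ ac p 2 = v then ι h.choose * b * (ι h.choose)⁻¹ else if u = v then ι (τ u ^ α) else 1

theorem bf_deg (h : u = 0 ∨ v = 0 ∨ u = v) : bf ι b α u v = if u = v then ι (τ u ^ α) else 1 := dif_neg (by
  rintro ⟨p, rfl, rfl⟩
  exact h.elim (ac_ne p (by decide) (by decide)) fun h => h.elim (ac_ne p (by decide) (by decide)) fun h =>
    absurd (ac_inj (by decide) (by decide) h) (by decide))

theorem bf_r (u : ℕ) : bf ι b α u 0 = 1 := by rw [bf_deg (.inr (.inl rfl))]; split_ifs with h <;> simp [*, τ_zero]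
theorem bf_l (u : ℕ) : bf ι b α 0 u = 1 := by rw [bf_deg (.inl rfl)]; split_ifs with h <;> simp [τ_zero]
theorem bf_self (u : ℕ) : bf ι b α u u = ι (τ u ^ α) := by rw [bf_deg (.inr (.inr rfl)), if_pos rfl]

theorem rec2 {P : ℕ → ℕ → Prop} (a : ∀ p, P (ac p 1) (ac p 2)) (r : ∀ u < 64, P u 0) (l : ∀ u < 64, P 0 u) (s : ∀ u < 64, P u u)
    (i : u < 64) (j : v < 64) (e : fm u v = 0) : P u v := by
  by_cases h : u ≠ 0 ∧ v ≠ 0 ∧ u ≠ v
  · obtain ⟨p, rfl, rfl⟩ := ex_2 i j h e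
    exact a p
  obtain rfl | rfl | rfl : u = 0 ∨ v = 0 ∨ u = v := by omega
  exacts [l _ j, r _ i, s _ i]

theorem τp_sq (u α : ℕ) : ι (τ u ^ α) * ι (τ u ^ α) = 1 := by rcases τ_pow u α with e | e <;> rw [e, ← map_mul] <;> simp [τ_sq]

namespace B0
variable (f : B0 ι t b α)
include f

theorem cj (p : Sp) : bf ι b α (ac p 1) (ac p 2) = ι p * b * (ι p)⁻¹ := by
  have h : ∃ q, ac q 1 = ac p 1 ∧ ac q 2 = ac p 2 := ⟨p, rfl, rfl⟩
  have := f.cz (p⁻¹ * h.choose) (mem_F4.2 ⟨by rw [ac_mul, h.choose_spec.1, ac_inv p (by decide)], by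
    rw [ac_mul, h.choose_spec.2, ac_inv p (by decide)]⟩)
  rw [bf, dif_pos h]
  calc _ = ι p * (ι (p⁻¹ * h.choose) * b) * (ι h.choose)⁻¹ := by simp [mul_assoc]
    _ = _ := by rw [← this]; simp [mul_assoc]

theorem cj2 (p q : Sp) : bf ι b α (ac p (ac q 1)) (ac p (ac q 2)) = ι p * (ι q * b * (ι q)⁻¹) * (ι p)⁻¹ := by
  rw [← ac_mul, ← ac_mul, f.cj, map_mul]; group

theorem eqv (q : Sp) (i : u < 64) (j : v < 64) (e : fm u v = 0) : ι q * bf ι b α u v * (ι q)⁻¹ = bf ι b α (ac q u) (ac q v) :=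
  rec2 (P := fun u v => ι q * bf ι b α u v * (ι q)⁻¹ = bf ι b α (ac q u) (ac q v)) (fun p => by rw [f.cj2, f.cj])
    (fun u _ => by simp [ac_zero, bf_r]) (fun u _ => by simp [ac_zero, bf_l])
    (fun u l => by rw [bf_self, bf_self, ← τ_cj q l, conj_pow]; simp) i j e

theorem tw' (c : Ct ι t) (i : u < 64) (j : v < 64) (e : fm u v = 0) : bf ι b α u v * t * (bf ι b α u v)⁻¹ = t * ι (bb u v) :=
  rec2 (P := fun u v => bf ι b α u v * t * (bf ι b α u v)⁻¹ = t * ι (bb u v)) (fun p => by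
      rw [f.cj, ← bb_cj p (by decide) (by decide), ← c.cjt' (.of p), ← f.tw]
      conv_lhs => rw [← c.tcj p]
      group)
    (fun u _ => by simp [bf_r, bb00]) (fun u _ => by simp [bf_l, bb00]) (fun u l => by rw [bf_self, c.tcj]; simp [bb00]) i j e

theorem sq' (i : u < 64) (j : v < 64) (e : fm u v = 0) : bf ι b α u v * bf ι b α u v = 1 :=
  rec2 (P := fun u v => bf ι b α u v * bf ι b α u v = 1) (fun p => by rw [f.cj, sqj f.sq])
    (fun u _ => by simp [bf_r]) (fun u _ => by simp [bf_l]) (fun u l => by rw [bf_self, τp_sq]) i j e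

theorem sym (i : u < 64) (j : v < 64) (e : fm u v = 0) : bf ι b α v u = bf ι b α u v * ι (bb u v ^ α) :=
  rec2 (P := fun u v => bf ι b α v u = bf ι b α u v * ι (bb u v ^ α)) (fun p => by
      have := f.cj2 p (σ3 * bb 1 16)
      rw [show ac (σ3 * bb 1 16) 1 = 2 by simp only [ac_cd, cd_mul, cd_σ, cd_bb]; decide +kernel,
        show ac (σ3 * bb 1 16) 2 = 1 by simp only [ac_cd, cd_mul, cd_σ, cd_bb]; decide +kernel, f.sy, cjm] at this
      rw [this, f.cj, ← bb_cj p (by decide) (by decide), conj_pow]; simp)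
    (fun u _ => by simp [bf_r, bf_l, bb00]) (fun u _ => by simp [bf_r, bf_l, bb00]) (fun u l => by simp [bb00]) i j e

theorem shift (i : u < 64) (j : v < 64) (e : fm u v = 0) : bf ι b α u (u ^^^ v) = bf ι b α u v * ι (τ u ^ α) :=
  rec2 (P := fun u v => bf ι b α u (u ^^^ v) = bf ι b α u v * ι (τ u ^ α)) (fun p => by
      have := f.cj2 p (bb 1 16)
      rw [acv.2.2.2.1, acv.2.2.2.2.1, f.sh, cjm, show ac p 3 = _ from ac_xor p 1 2] at this
      rw [this, f.cj, ← τ_cj p (by decide), conj_pow]; simp)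
    (fun u _ => by simp [bf_r, bf_self]) (fun u _ => by simp [bf_l, τ_zero]) (fun u l => by rw [Nat.xor_self, bf_r, bf_self, τp_sq]) i j e

theorem cm (i : u < 64) (j : v < 64) (e : fm u v = 0) (a : ac m u = u) (d : ac m v = v) : bf ι b α u v * ι m = ι m * bf ι b α u v :=
  (mul_inv_eq_iff_eq_mul.1 (by rw [f.eqv m i j e, a, d])).symm

theorem tr (c : Ct ι t) (i : u < 8 := by decide) (j : v < 8 := by decide) : Tr ι t (bf ι b α u v) (bb u v) :=
  have e := (by decide +kernel : ∀ u < 8, ∀ v < 8, fm u v = 0) u i v j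
  ⟨fun m h => f.cm (by omega) (by omega) e ((h u i).trans (Nat.mod_eq_of_lt (by omega))) ((h v j).trans (Nat.mod_eq_of_lt (by omega))),
    f.tw' c (by omega) (by omega) e⟩

theorem eqv' (q : Sp) {u' v' : ℕ} (a : ac q u = u') (d : ac q v = v') (i : u < 64 := by decide) (j : v < 64 := by decide) (e : fm u v = 0 := by decide) :
    ι q * bf ι b α u v * (ι q)⁻¹ = bf ι b α u' v' := a ▸ d ▸ f.eqv q i j e

theorem add1 (c : Ct ι t) (k0 : K0 ι t) : ∃ k < 2, bf ι b α 1 6 = bf ι b α 1 2 * bf ι b α 1 4 * ι (τ 1 ^ k) := by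
  have s : ∀ v < 8, bf ι b α 1 v * bf ι b α 1 v = 1 := fun v l => f.sq' (by decide) (by omega) (by revert v; decide)
  have a := k0 _ _ (s 2 (by decide)) (s 4 (by decide)) (f.tr c) (f.tr c)
  obtain ⟨e, i, r⟩ := c.tr_uq (sq2 (s 2 (by decide)) (s 4 (by decide)) a) (s 6 (by decide)) (m := bb 1 6) (cd_ne (by rw [cd_bb, cd_one]; decide +kernel))
    ((show bb 1 2 * bb 1 4 = bb 1 6 from cd_inj (by simp only [cd_mul, cd_bb]; decide +kernel)) ▸ (f.tr c).mul (f.tr c) (AL_le (bbA (by decide) (by decide))))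
    (f.tr c)
  have z : ∀ p u v w, ac p 1 = 1 → ac p 2 = u → ac p 4 = v → ac p 6 = w → fm 1 u = 0 →
      bf ι b α 1 w = bf ι b α 1 u * bf ι b α 1 v * ι (p * e * p⁻¹) := fun p u v w h1 h2 h4 h6 _ => by
    rw [← f.eqv' p h1 h6, r, cjm, cjm, f.eqv' p h1 h2, f.eqv' p h1 h4]; simp
  have o := (ex_lv (u := 1) (v := 4) (w := 2) (by decide) (by decide) (by decide) (by decide)).1
  have z1 := z (lv (1 + 8 * 4 + 64 * 2)) 4 2 6 (by rw [ac_cd, cd_lv o]; decide +kernel) (by rw [ac_cd, cd_lv o]; decide +kernel)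
    (by rw [ac_cd, cd_lv o]; decide +kernel) (by rw [ac_cd, cd_lv o]; decide +kernel) (by decide)
  have z2 := z (bb 2 32) 2 6 4 (by rw [ac_cd, cd_bb]; decide +kernel) (by rw [ac_cd, cd_bb]; decide +kernel)
    (by rw [ac_cd, cd_bb]; decide +kernel) (by rw [ac_cd, cd_bb]; decide +kernel) (by decide)
  have z3 := z (bb 1 16) (1 ^^^ 2) 4 (1 ^^^ 6) (by rw [ac_cd, cd_bb]; decide +kernel) (by rw [ac_cd, cd_bb]; decide +kernel)
    (by rw [ac_cd, cd_bb]; decide +kernel) (by rw [ac_cd, cd_bb]; decide +kernel) (by decide)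
  have j : τ 1 ^ α ∈ EE := pow_mem (τE (by decide)) _
  rw [r, ← a, mul_right_inj, c.ii] at z1
  rw [r, ← mul_assoc, ← mul_assoc, s 2 (by decide), one_mul, mul_assoc, eq_comm, mul_eq_left, ← map_mul, c.i1, mul_eq_one_iff_inv_eq,
    si (EE_sq i)] at z2
  rw [f.shift (by decide) (by decide) (by decide), f.shift (by decide) (by decide) (by decide), r, mul_assoc _ (ι _) (bf ι b α 1 4),
    ← (f.tr c (u := 1) (v := 4)).1 _ j, ← mul_assoc, mul_assoc _ (ι e), mul_assoc _ (ι _) (ι _), mul_right_inj, ← map_mul, ← map_mul, c.ii,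
    EE_cm i j, mul_right_inj] at z3
  obtain ⟨n, l, rfl⟩ := mem_EE.1 i
  have q1 := congrArg cd z1
  have q2 := congrArg cd z2
  have q3 := congrArg cd z3
  simp only [cd_mul, cd_inv, cd_ee, cd_bb, cd_lv o] at q1 q2 q3
  obtain rfl | rfl := (by decide +kernel : ∀ n < 64, ec n = cc (lc (1 + 8 * 4 + 64 * 2)) (ec n) → ec n = cc (bc 2 32) (ec n) →
    ec n = cc (bc 1 16) (ec n) → n = 0 ∨ n = 1) n l q1 q2 q3
  exacts [⟨0, by decide, by rw [r, ee_val.1, pow_zero]⟩, ⟨1, by decide, by rw [r, ee_val.2.1, pow_one]⟩]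

theorem add2 (r : bf ι b α 1 6 = bf ι b α 1 2 * bf ι b α 1 4 * ι (τ 1 ^ k)) (p : Sp) (h1 : ac p 1 = u) (h2 : ac p 2 = v) (h4 : ac p 4 = w) :
    bf ι b α u (v ^^^ w) = bf ι b α u v * bf ι b α u w * ι (τ u ^ k) := by
  rw [← f.eqv' p (v := 6) h1 (by rw [← h2, ← h4, ← ac_xor]; rfl), r, cjm, cjm, f.eqv' p h1 h2, f.eqv' p h1 h4, ← h1, ← τ_cj p (by decide), conj_pow]
  simp

theorem add3 (c : Ct ι t) (k0 : K0 ι t) (a : α = 0 ∨ α = 1) : bf ι b α 1 6 = bf ι b α 1 2 * bf ι b α 1 4 := by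
  obtain ⟨k, l, r⟩ := f.add1 c k0
  obtain rfl | rfl : k = 0 ∨ k = 1 := by omega
  · simpa using r
  have z : ∀ u v w, u < 8 ∧ v < 8 ∧ w < 8 ∧ u ≠ 0 ∧ v ≠ 0 ∧ v ≠ u ∧ w ≠ 0 ∧ w ≠ u ∧ w ≠ v ∧ w ≠ u ^^^ v →
      bf ι b α u (v ^^^ w) = bf ι b α u v * bf ι b α u w * ι (τ u ^ 1) := fun u v w h =>
    let ⟨p, _, h1, h2, h4⟩ := ex_MM h.1 h.2.1 h.2.2.1 h.2.2.2; f.add2 r p h1 h2 h4
  have e1 : bf ι b α 5 6 = _ := z 5 2 4 (by decide)
  have e2 : bf ι b α 2 5 = _ := z 2 4 1 (by decide)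
  have e3 : bf ι b α 6 5 = _ := z 6 4 1 (by decide)
  have s1 : bf ι b α 5 4 = _ := f.shift (u := 5) (v := 1) (by decide) (by decide) (by decide)
  have s2 : bf ι b α 1 5 = _ := f.shift (u := 1) (v := 4) (by decide) (by decide) (by decide)
  have s3 : bf ι b α 6 4 = _ := f.shift (u := 6) (v := 2) (by decide) (by decide) (by decide)
  have s4 : bf ι b α 2 6 = _ := f.shift (u := 2) (v := 4) (by decide) (by decide) (by decide)
  have y : ∀ u v, u < 64 ∧ v < 64 ∧ fm u v = 0 → bf ι b α v u = bf ι b α u v * ι (bb u v ^ α) := fun u v h => f.sym h.1 h.2.1 h.2.2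
  rw [y 6 5 (by decide), e3, s3, y 2 6 (by decide), s4, y 1 6 (by decide), r, y 2 5 (by decide), e2, y 1 2 (by decide), s1, y 1 5 (by decide), s2] at e1
  have tE : ∀ u < 8, ∀ n, τ u ^ n ∈ EE := fun u l n => pow_mem (τE l) n
  have bE : ∀ u < 8, ∀ v < 8, bb u v ^ α ∈ EE := fun u l v j => pow_mem (AL_le (bbA l j)) α
  have c1 := ((f.tr c (u := 1) (v := 2)).1.mul (f.tr c (u := 1) (v := 4)).1) _
    (mul_mem (mul_mem (tE 2 (by decide) α) (bE 2 (by decide) 6 (by decide))) (tE 6 (by decide) α))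
  have c2 := (f.tr c (u := 1) (v := 4)).1 _ (mul_mem (mul_mem (bE 1 (by decide) 2 (by decide)) (tE 2 (by decide) 1)) (bE 2 (by decide) 5 (by decide)))
  generalize bf ι b α 1 2 = x, bf ι b α 1 4 = y, bf ι b α 2 4 = z at e1 c1 c2
  have : z * (ι (τ 2 ^ α * bb 2 6 ^ α * τ 6 ^ α) * (x * y)) * ι (τ 1 ^ 1 * bb 1 6 ^ α * τ 6 ^ 1 * bb 6 5 ^ α) =
      z * x * (ι (bb 1 2 ^ α * τ 2 ^ 1 * bb 2 5 ^ α) * y) * ι (τ 1 ^ α * bb 1 5 ^ α * τ 5 ^ α * τ 5 ^ 1) := by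
    simpa only [map_mul, mul_assoc] using e1
  rw [← c1, ← c2] at this
  simp only [mul_assoc, mul_right_inj, ← map_mul, c.ii] at this
  rcases a with rfl | rfl <;> exact absurd this (cd_ne (by simp only [pow_zero, pow_one, cd_mul, cd_bb, cd_τ, cd_one]; decide +kernel))

theorem add (c : Ct ι t) (k0 : K0 ι t) (a : α = 0 ∨ α = 1) (i : u < 64) (j : v < 64) (l : w < 64) (e1 : fm u v = 0) (e2 : fm u w = 0) (e3 : fm v w = 0) :
    bf ι b α u (v ^^^ w) = bf ι b α u v * bf ι b α u w := by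
  obtain h | rfl | rfl | rfl | rfl | rfl | rfl | rfl : (u ≠ 0 ∧ v ≠ 0 ∧ v ≠ u ∧ w ≠ 0 ∧ w ≠ u ∧ w ≠ v ∧ w ≠ u ^^^ v) ∨ u = 0 ∨ v = 0 ∨ v = u ∨ w = 0 ∨
    w = u ∨ w = v ∨ w = u ^^^ v := by omega
  · obtain ⟨g, rfl⟩ := ex_1 i h.1
    obtain ⟨v, j', rfl⟩ : ∃ x < 64, ac g x = v := ⟨_, ac_lt _ _, ac_inv' g j⟩
    replace j := j'
    obtain ⟨w, l', rfl⟩ : ∃ x < 64, ac g x = w := ⟨_, ac_lt _ _, ac_inv' g l⟩
    replace l := l'
    rw [ac_fm g (by decide) j, fm_symm (by decide) j] at e1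
    rw [ac_fm g (by decide) l, fm_symm (by decide) l] at e2
    rw [ac_fm g j l] at e3
    obtain ⟨p, h1, h2, h4⟩ := ex_P1 j l ((by decide +kernel : ∀ v < 64, ∀ w < 64, v ≠ 0 → v ≠ 1 → w ≠ 0 → w ≠ 1 → w ≠ v → w ≠ 1 ^^^ v →
      1 < v ∧ 1 < w ∧ 1 < v ^^^ w) v j w l (fun e => h.2.1 (e ▸ ac_zero g)) (fun e => h.2.2.1 (e ▸ rfl)) (fun e => h.2.2.2.1 (e ▸ ac_zero g))
      (fun e => h.2.2.2.2.1 (e ▸ rfl)) (fun e => h.2.2.2.2.2.1 (e ▸ rfl)) fun e => h.2.2.2.2.2.2 (e ▸ ac_xor g 1 v)) ⟨e1, e2⟩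
    rw [if_neg (by omega)] at h4
    simpa using f.add2 (k := 0) (by simpa using f.add3 c k0 a) (g * p) (by rw [ac_mul, mem_P1.1 h1]) (by rw [ac_mul, h2]) (by rw [ac_mul, h4])
  · simp [bf_l]
  · simp [bf_r]
  · rw [f.shift i l e2, bf_self, f.cm i l e2 (m := τ v ^ α)] <;> rcases τ_pow v α with e | e <;> rw [e]
    exacts [ac_one i, (τ_cm i).1 rfl, ac_one l, (τ_cm l).1 (τ_comm i l (fm_symm i l ▸ e2))]
  · simp [bf_r]
  · rw [Nat.xor_comm, f.shift i j e1, bf_self]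
  · rw [Nat.xor_self, bf_r, f.sq' i j e1]
  · rw [f.shift i j e1, ← mul_assoc, f.sq' i j e1, one_mul, Nat.xor_comm u, Nat.xor_xor_cancel_left, bf_self]

end B0

end CF.Y6
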