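import Cfsg.Agent.S2091
import Cfsg.Agent.S0279
import Cfsg.Agent.Schur.Crit

/-! Central extensions of `SU₆(2)` with kernel of odd order split. -/

set_option autoImplicit false

namespace CF.Y6

open Cfsg Subgroup

theorem stem62 {F Γ : Type*} [Field F] [Fintype F] [Group Γ] (hF : Fintype.card F = 4) {σ : Γ →* SU 6 F 2} (c : Schur.CExt σ)
    (p : _root_.commutator Γ = ⊤) : Nat.card σ.ker ∣ 4 := by
  have h0 := c.comp_of_perfect (Schur.cext_mk' _ le_rfl) p
  have h2 := Schur.HasSchur.card_mul_dvd (Cfsg.Agent.S2091.result hF) h0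
  rw [Schur.stem_mul (Schur.stem_of_perfect h0 p)] at h2
  have h4 := Schur.card_eq_mul_ker h0.surj
  rw [Schur.card_eq_mul_ker c.surj, Schur.card_eq_mul_ker (QuotientGroup.mk'_surjective (center (SU 6 F 2))), mul_assoc,
    QuotientGroup.ker_mk', Cfsg.Agent.S0279.result (q := 2) hF 6 (by omega)] at h4
  rw [← Nat.eq_of_mul_eq_mul_left Nat.card_pos h4] at h2
  exact Nat.dvd_of_mul_dvd_mul_left (k := 3) (by omega) (by simpa using h2)

theorem lift62 {F Y Q : Type*} [Field F] [Fintype F] [Group Y] [Group Q] (hF : Fintype.card F = 4) {ξ : Y →* Q} (c : Schur.CExt ξ)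
    (o : Odd (Nat.card ξ.ker)) (f : SU 6 F 2 →* Q) : ∃ η : SU 6 F 2 →* Y, ξ.comp η = f := by
  obtain ⟨h1, p⟩ := (c.pull f).stem_commutator (Geom.commutator_SU_eq_top (q := 2) hF 6 (by omega) (by omega))
  have h2 := stem62 hF (Schur.stem_cext h1) p
  have h3 := card_dvd_of_injective (α := ((Schur.pullSnd ξ f).comp (_root_.commutator _).subtype).ker)
    ((Schur.pullKerEquiv ξ f).toMonoidHom.comp (((_root_.commutator _).subtype.comp (Subgroup.subtype _)).codRestrict _ fun x => x.2))
    ((Schur.pullKerEquiv ξ f).injective.comp fun a b e => Subtype.ext (Subtype.ext (congrArg Subtype.val e :)))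
  have h4 := (MonoidHom.ker_eq_bot_iff _).1 (card_eq_one.1 (Nat.eq_one_of_dvd_coprimes
    (Nat.Coprime.pow_left 2 (Nat.coprime_two_left.2 o)) h2 h3))
  let e := MulEquiv.ofBijective _ ⟨h4, h1.1⟩
  refine ⟨(Schur.pullFst ξ f).comp ((_root_.commutator _).subtype.comp e.symm.toMonoidHom), MonoidHom.ext fun g => ?_⟩
  exact (DFunLike.congr_fun (Schur.pull_comm ξ f) _).trans (congrArg f (e.apply_symm_apply g))

end CF.Y6
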